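import Cfsg.Agent.H910.VFix

open Matrix Polynomial

namespace Cfsg.Agent.H910.VFix

open Cfsg.Agent.H482.VSeq

section char3

variable {F : Type*} [Field F]

/-- The trace polynomial to the prime field of characteristic `3`. -/
def T (r : ℕ) (y : F) : F := ∑ i ∈ Finset.range r, y ^ 3 ^ i

theorem T_frob [CharP F 3] (r : ℕ) (y : F) (hy : y ^ 3 ^ r = y) : T r (y ^ 3) = T r y := by
  unfold T
  have h1 : ∑ i ∈ Finset.range r, (y ^ 3) ^ 3 ^ i = ∑ i ∈ Finset.range r, y ^ 3 ^ (i + 1) := by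
    refine Finset.sum_congr rfl fun i _ => ?_
    rw [← pow_mul, pow_succ' 3 i]
  have h2 := Finset.sum_range_succ' (fun i => y ^ 3 ^ i) r
  have h3 := Finset.sum_range_succ (fun i => y ^ 3 ^ i) r
  rw [h1]
  simp only [pow_zero, pow_one] at h2
  rw [hy] at h3
  exact add_right_cancel (h2.symm.trans h3)

theorem T_pow [CharP F 3] (r : ℕ) (y : F) (hy : y ^ 3 ^ r = y) : T r y ^ 3 = T r y := by
  have h1 : T r y ^ 3 = T r (y ^ 3) := by
    unfold T
    rw [sum_pow_char 3]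
    refine Finset.sum_congr rfl fun i _ => ?_
    rw [← pow_mul, ← pow_mul, mul_comm]
  rw [h1, T_frob r y hy]

theorem T_sub [CharP F 3] (r : ℕ) (x y : F) : T r (x - y) = T r x - T r y := by
  unfold T
  rw [← Finset.sum_sub_distrib]
  exact Finset.sum_congr rfl fun i _ => sub_pow_char_pow x y i (p := 3)

theorem exists_as [Fintype F] [CharP F 3] {r : ℕ} (hF : Fintype.card F = 3 ^ r) (hr : 0 < r) (y : F)
    (hy : T r y = 0) : ∃ a : F, a ^ 3 - a = y := by
  classical
  have hS : (Finset.univ.image (fun a : F => a ^ 3 - a)) ⊆ Finset.univ.filter (fun y : F => T r y = 0) := by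
    intro z hz
    obtain ⟨a, -, rfl⟩ := Finset.mem_image.1 hz
    refine Finset.mem_filter.2 ⟨Finset.mem_univ _, ?_⟩
    rw [T_sub, T_frob r a (by rw [← hF]; exact FiniteField.pow_card a), sub_self]
  have hc1 : Fintype.card F ≤ 3 * (Finset.univ.image (fun a : F => a ^ 3 - a)).card := by
    rw [← Finset.card_univ]
    refine Finset.card_le_mul_card_image _ 3 fun b _ => ?_
    have hP : (X ^ 3 - X - C b : F[X]).natDegree = 3 := by compute_degree!
    have h0 : (X ^ 3 - X - C b : F[X]) ≠ 0 := by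
      intro h; rw [h] at hP; simp at hP
    calc (Finset.univ.filter (fun a : F => a ^ 3 - a = b)).card
        ≤ (X ^ 3 - X - C b : F[X]).roots.toFinset.card := by
          refine Finset.card_le_card fun a ha => ?_
          have ha' := (Finset.mem_filter.1 ha).2
          rw [Multiset.mem_toFinset, mem_roots h0, IsRoot.def]
          simp [ha']
      _ ≤ Multiset.card (X ^ 3 - X - C b : F[X]).roots := Multiset.toFinset_card_le _
      _ ≤ (X ^ 3 - X - C b : F[X]).natDegree := card_roots' _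
      _ = 3 := hP
  have hc2 : (Finset.univ.filter (fun y : F => T r y = 0)).card ≤ 3 ^ (r - 1) := by
    have h0 : (∑ i ∈ Finset.range r, X ^ 3 ^ i : F[X]) ≠ 0 := by
      intro h
      have h1 : (∑ i ∈ Finset.range r, X ^ 3 ^ i : F[X]).coeff 1 = 1 := by
        rw [finsetSum_coeff, Finset.sum_eq_single 0]
        · simp
        · intro i _ hi
          rw [coeff_X_pow, if_neg]
          intro h2
          have : 1 < 3 ^ i := Nat.one_lt_pow hi (by norm_num)
          omega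
        · intro h; exact absurd (Finset.mem_range.2 hr) h
      rw [h, coeff_zero] at h1
      exact zero_ne_one h1
    calc (Finset.univ.filter (fun y : F => T r y = 0)).card
        ≤ (∑ i ∈ Finset.range r, X ^ 3 ^ i : F[X]).roots.toFinset.card := by
          refine Finset.card_le_card fun a ha => ?_
          have ha' := (Finset.mem_filter.1 ha).2
          rw [Multiset.mem_toFinset, mem_roots h0, IsRoot.def, eval_finsetSum]
          simpa [T] using ha'
      _ ≤ Multiset.card (∑ i ∈ Finset.range r, X ^ 3 ^ i : F[X]).roots := Multiset.toFinset_card_le _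
      _ ≤ (∑ i ∈ Finset.range r, X ^ 3 ^ i : F[X]).natDegree := card_roots' _
      _ ≤ 3 ^ (r - 1) := by
          refine natDegree_sum_le_of_forall_le _ _ fun i hi => ?_
          rw [natDegree_X_pow]
          exact Nat.pow_le_pow_right (by norm_num) (by have := Finset.mem_range.1 hi; omega)
  have hle : (Finset.univ.filter (fun y : F => T r y = 0)).card ≤
      (Finset.univ.image (fun a : F => a ^ 3 - a)).card := by
    have h3 : 3 ^ r = 3 * 3 ^ (r - 1) := by rw [← pow_succ']; congr 1; omega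
    omega
  have heq := Finset.eq_of_subset_of_card_le hS hle
  have hm : y ∈ Finset.univ.image (fun a : F => a ^ 3 - a) := by
    rw [heq]; exact Finset.mem_filter.2 ⟨Finset.mem_univ _, hy⟩
  obtain ⟨a, -, ha⟩ := Finset.mem_image.1 hm
  exact ⟨a, ha⟩

/-- The exponents of the monomials of `T(s + 1/s)`. -/
def ex (r : ℕ) (x : Bool × ℕ) : ℕ := if x.1 then 3 ^ x.2 else 3 ^ r - 1 - 3 ^ x.2

theorem ar_mul (Q k : ℕ) : k = 0 ∨ k = 1 ∨ k = 2 ∨ 3 * (3 * Q - 1) ≤ (3 * Q - 1) * k := by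
  rcases k with _ | _ | _ | k
  · left; rfl
  · right; left; rfl
  · right; right; left; rfl
  · right; right; right; rw [mul_comm]; exact Nat.mul_le_mul_left _ (by omega)

theorem ar_ff {Q A B : ℕ} (hQ : 9 ≤ Q) (hA : 1 ≤ A) (hA' : A ≤ Q) (hB : 1 ≤ B) (hB' : B ≤ Q) :
    ¬ 3 * Q - 1 ∣ 3 * Q - 5 + (3 * Q - 1 - A) + (3 * Q - 1 - B) := by
  rintro ⟨k, hk⟩
  rcases ar_mul Q k with rfl | rfl | rfl | h <;> omega

theorem ar_tf {Q A B : ℕ} (hQ : 9 ≤ Q) (hA : A = 1 ∨ A = 3 ∨ ∃ k, A = 9 * k ∧ 0 < k) (hA' : A ≤ Q)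
    (hB : B = 1 ∨ B = 3 ∨ ∃ k, B = 9 * k ∧ 0 < k) (hB' : B ≤ Q) :
    ¬ 3 * Q - 1 ∣ 3 * Q - 5 + A + (3 * Q - 1 - B) := by
  rintro ⟨k, hk⟩
  rcases hA with rfl | rfl | ⟨m, rfl, hm⟩ <;> rcases hB with rfl | rfl | ⟨n, rfl, hn⟩ <;>
    rcases ar_mul Q k with rfl | rfl | rfl | h <;> omega

theorem ar_ft {Q A B : ℕ} (hQ : 9 ≤ Q) (hA : A = 1 ∨ A = 3 ∨ ∃ k, A = 9 * k ∧ 0 < k) (hA' : A ≤ Q)
    (hB : B = 1 ∨ B = 3 ∨ ∃ k, B = 9 * k ∧ 0 < k) (hB' : B ≤ Q) :
    ¬ 3 * Q - 1 ∣ 3 * Q - 5 + (3 * Q - 1 - A) + B := by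
  have := ar_tf hQ hB hB' hA hA'
  rwa [add_right_comm] at this

theorem ar_tt {Q A B : ℕ} (hQ : 9 ≤ Q) (hA : 1 ≤ A) (hA' : A ≤ Q) (hB : 1 ≤ B) (hB' : B ≤ Q)
    (h : 3 * Q - 1 ∣ 3 * Q - 5 + A + B) : A + B = 4 := by
  obtain ⟨k, hk⟩ := h
  rcases ar_mul Q k with rfl | rfl | rfl | h <;> omega

theorem ex_dvd {r : ℕ} (hr : 3 ≤ r) {x y : Bool × ℕ} (hx : x.2 < r) (hy : y.2 < r) :
    3 ^ r - 1 ∣ 3 ^ r - 5 + ex r x + ex r y ↔ (x = (true, 0) ∧ y = (true, 1)) ∨ (x = (true, 1) ∧ y = (true, 0)) := by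
  obtain ⟨b, i⟩ := x
  obtain ⟨c, j⟩ := y
  simp only at hx hy
  have hQ : 3 ^ r = 3 * 3 ^ (r - 1) := by rw [← pow_succ']; congr 1; omega
  have hQ9 : 9 ≤ 3 ^ (r - 1) := by
    calc 9 = 3 ^ 2 := by norm_num
      _ ≤ 3 ^ (r - 1) := Nat.pow_le_pow_right (by norm_num) (by omega)
  have hi : 3 ^ i ≤ 3 ^ (r - 1) := Nat.pow_le_pow_right (by norm_num) (by omega)
  have hj : 3 ^ j ≤ 3 ^ (r - 1) := Nat.pow_le_pow_right (by norm_num) (by omega)
  have hi1 : 1 ≤ 3 ^ i := Nat.one_le_pow _ _ (by norm_num)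
  have hj1 : 1 ≤ 3 ^ j := Nat.one_le_pow _ _ (by norm_num)
  have key : ∀ i : ℕ, 3 ^ i = 1 ∨ 3 ^ i = 3 ∨ ∃ k, 3 ^ i = 9 * k ∧ 0 < k := by
    intro i
    rcases i with _ | _ | i
    · left; rfl
    · right; left; rfl
    · right; right; exact ⟨3 ^ i, by rw [pow_add]; ring, Nat.one_le_pow _ _ (by norm_num)⟩
  constructor
  · intro h
    cases b <;> cases c <;> simp only [ex, if_true, if_false, Bool.false_eq_true, hQ] at h
    · exact absurd h (ar_ff hQ9 hi1 hi hj1 hj)
    · exact absurd h (ar_ft hQ9 (key i) hi (key j) hj)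
    · exact absurd h (ar_tf hQ9 (key i) hi (key j) hj)
    · have h4 := ar_tt hQ9 hi1 hi hj1 hj h
      rcases i with _ | _ | i <;> rcases j with _ | _ | j
      · norm_num at h4
      · left; exact ⟨rfl, rfl⟩
      · exfalso; have := Nat.one_le_pow j 3 (by norm_num); have h9 : 3 ^ (j + 1 + 1) = 9 * 3 ^ j := by ring
        omega
      · right; exact ⟨rfl, rfl⟩
      · norm_num at h4
      · exfalso; have := Nat.one_le_pow j 3 (by norm_num); have h9 : 3 ^ (j + 1 + 1) = 9 * 3 ^ j := by ring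
        omega
      · exfalso; have := Nat.one_le_pow i 3 (by norm_num); have h9 : 3 ^ (i + 1 + 1) = 9 * 3 ^ i := by ring
        omega
      · exfalso; have := Nat.one_le_pow i 3 (by norm_num); have h9 : 3 ^ (i + 1 + 1) = 9 * 3 ^ i := by ring
        omega
      · exfalso; have := Nat.one_le_pow i 3 (by norm_num); have h9 : 3 ^ (i + 1 + 1) = 9 * 3 ^ i := by ring
        omega
  · rintro (⟨h1, h2⟩ | ⟨h1, h2⟩)
    · rw [h1, h2]; refine ⟨1, ?_⟩; simp only [ex, if_true, hQ, pow_zero, pow_one]; omega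
    · rw [h1, h2]; refine ⟨1, ?_⟩; simp only [ex, if_true, hQ, pow_zero, pow_one]; omega

theorem exists_s [Fintype F] [CharP F 3] {r : ℕ} (hF : Fintype.card F = 3 ^ r) (hr : 3 ≤ r) :
    ∃ s : Fˣ, T r ((s : F) + ((s⁻¹ : Fˣ) : F)) = 0 := by
  classical
  by_contra hcon
  push Not at hcon
  have hQ : 3 ^ r = 3 * 3 ^ (r - 1) := by rw [← pow_succ']; congr 1; omega
  have hQ9 : 9 ≤ 3 ^ (r - 1) := by
    calc 9 = 3 ^ 2 := by norm_num
      _ ≤ 3 ^ (r - 1) := Nat.pow_le_pow_right (by norm_num) (by omega)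
  have h1 : ∀ s : Fˣ, T r ((s : F) + ((s⁻¹ : Fˣ) : F)) ^ 2 = 1 := by
    intro s
    have h2 := T_pow r ((s : F) + ((s⁻¹ : Fˣ) : F)) (by rw [← hF]; exact FiniteField.pow_card _)
    have h3 := hcon s
    apply mul_left_cancel₀ h3
    rw [mul_one, ← pow_succ', h2]
  set J : Finset (Bool × ℕ) := Finset.univ ×ˢ Finset.range r with hJ
  have h2 : ∀ s : Fˣ, T r ((s : F) + ((s⁻¹ : Fˣ) : F)) = ∑ x ∈ J, ((s ^ ex r x : Fˣ) : F) := by
    intro s
    unfold T
    rw [hJ, Finset.sum_product, Fintype.sum_bool, ← Finset.sum_add_distrib]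
    refine Finset.sum_congr rfl fun i hi => ?_
    rw [add_pow_char_pow _ _ i (p := 3)]
    congr 1
    simp only [ex, Bool.false_eq_true, if_false]
    rw [← Units.val_pow_eq_pow_val, inv_pow]
    congr 1
    rw [eq_comm, eq_inv_iff_mul_eq_one, ← pow_add]
    have h3 : 3 ^ i ≤ 3 ^ (r - 1) := Nat.pow_le_pow_right (by norm_num) (by have := Finset.mem_range.1 hi; omega)
    rw [show 3 ^ r - 1 - 3 ^ i + 3 ^ i = Fintype.card F - 1 by rw [hF]; omega]
    apply Units.ext
    rw [Units.val_pow_eq_pow_val, Units.val_one]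
    exact FiniteField.pow_card_sub_one_eq_one (s : F) s.ne_zero
  have h3 : ∑ s : Fˣ, ((s : F) ^ (3 ^ r - 5)) * T r ((s : F) + ((s⁻¹ : Fˣ) : F)) ^ 2 = 0 := by
    simp only [h1, mul_one]
    have h4 := FiniteField.sum_pow_units F (3 ^ r - 5)
    rw [hF, if_neg] at h4
    · simpa using h4
    · intro h5
      have := Nat.le_of_dvd (by omega) h5
      omega
  have h4 : ∑ s : Fˣ, ((s : F) ^ (3 ^ r - 5)) * T r ((s : F) + ((s⁻¹ : Fˣ) : F)) ^ 2 =
      ∑ x ∈ J, ∑ y ∈ J, if 3 ^ r - 1 ∣ 3 ^ r - 5 + ex r x + ex r y then (-1 : F) else 0 := by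
    have h5 : ∀ s : Fˣ, ((s : F) ^ (3 ^ r - 5)) * T r ((s : F) + ((s⁻¹ : Fˣ) : F)) ^ 2 =
        ∑ x ∈ J, ∑ y ∈ J, (s : F) ^ (3 ^ r - 5 + ex r x + ex r y) := by
      intro s
      rw [h2 s, sq, Finset.sum_mul_sum, Finset.mul_sum]
      refine Finset.sum_congr rfl fun x _ => ?_
      rw [Finset.mul_sum]
      refine Finset.sum_congr rfl fun y _ => ?_
      rw [Units.val_pow_eq_pow_val, Units.val_pow_eq_pow_val, pow_add, pow_add, mul_assoc]
    simp only [h5]
    rw [Finset.sum_comm]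
    refine Finset.sum_congr rfl fun x _ => ?_
    rw [Finset.sum_comm]
    refine Finset.sum_congr rfl fun y _ => ?_
    have h6 := FiniteField.sum_pow_units F (3 ^ r - 5 + ex r x + ex r y)
    rw [hF] at h6
    exact_mod_cast h6
  have h5 : ∑ x ∈ J, ∑ y ∈ J, (if 3 ^ r - 1 ∣ 3 ^ r - 5 + ex r x + ex r y then (-1 : F) else 0) =
      ∑ x ∈ J, ∑ y ∈ J, ((if x = (true, 0) then (if y = (true, 1) then (-1 : F) else 0) else 0) +
        (if x = (true, 1) then (if y = (true, 0) then (-1 : F) else 0) else 0)) := by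
    refine Finset.sum_congr rfl fun x hx => Finset.sum_congr rfl fun y hy => ?_
    have hx' : x.2 < r := by simpa [hJ] using hx
    have hy' : y.2 < r := by simpa [hJ] using hy
    rw [ite_cond_congr (propext (ex_dvd hr hx' hy'))]
    by_cases a1 : x = (true, 0)
    · have a2 : x ≠ (true, 1) := by rw [a1]; simp
      by_cases a3 : y = (true, 1)
      · rw [if_pos (Or.inl ⟨a1, a3⟩), if_pos a1, if_pos a3, if_neg a2, add_zero]
      · rw [if_neg, if_pos a1, if_neg a3, if_neg a2, add_zero]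
        rintro (h | h)
        · exact a3 h.2
        · exact a2 h.1
    · by_cases a2 : x = (true, 1)
      · by_cases a3 : y = (true, 0)
        · rw [if_pos (Or.inr ⟨a2, a3⟩), if_neg a1, if_pos a2, if_pos a3, zero_add]
        · rw [if_neg, if_neg a1, if_pos a2, if_neg a3, add_zero]
          rintro (h | h)
          · exact a1 h.1
          · exact a3 h.2
      · rw [if_neg, if_neg a1, if_neg a2, add_zero]
        rintro (h | h)
        · exact a1 h.1
        · exact a2 h.1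
  have m0 : ((true, 0) : Bool × ℕ) ∈ J := by simp [hJ]; omega
  have m1 : ((true, 1) : Bool × ℕ) ∈ J := by simp [hJ]; omega
  have h6 : ∑ x ∈ J, ∑ y ∈ J, ((if x = (true, 0) then (if y = (true, 1) then (-1 : F) else 0) else 0) +
        (if x = (true, 1) then (if y = (true, 0) then (-1 : F) else 0) else 0)) = -2 := by
    simp only [Finset.sum_add_distrib]
    have e1 : ∑ x ∈ J, ∑ y ∈ J, (if x = (true, 0) then (if y = (true, 1) then (-1 : F) else 0) else 0) = -1 := by
      rw [Finset.sum_eq_single_of_mem (true, 0) m0 (fun b _ hb => by simp [hb])]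
      simp only [if_true]
      rw [Finset.sum_ite_eq', if_pos m1]
    have e2 : ∑ x ∈ J, ∑ y ∈ J, (if x = (true, 1) then (if y = (true, 0) then (-1 : F) else 0) else 0) = -1 := by
      rw [Finset.sum_eq_single_of_mem (true, 1) m1 (fun b _ hb => by simp [hb])]
      simp only [if_true]
      rw [Finset.sum_ite_eq', if_pos m0]
    rw [e1, e2]
    norm_num
  rw [h4, h5, h6] at h3
  have h7 : (3 : F) = 0 := by exact_mod_cast CharP.cast_eq_zero F 3
  exact one_ne_zero (α := F) (by linear_combination h3 + h7)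

theorem fixedPair_psl2_three {F : Type*} [Field F] [Fintype F] {p : ℕ} (hp : p.Prime) (hp2 : p ≠ 2)
    (hF : Fintype.card F = 3 ^ p) : FixedPair (Matrix.ProjectiveSpecialLinearGroup (Fin 2) F) := by
  classical
  have hr : 3 ≤ p := by
    have := hp.two_le
    omega
  have hch : CharP F 3 := by
    obtain ⟨n, hn1, hn2⟩ := FiniteField.card F (ringChar F)
    have h3 : ringChar F ∣ 3 ^ p := by rw [← hF, hn2]; exact dvd_pow_self _ n.ne_zero
    have h4 := (Nat.prime_dvd_prime_iff_eq hn1 Nat.prime_three).1 (hn1.dvd_of_dvd_pow h3)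
    rw [← h4]; exact ringChar.charP F
  have hodd : p % 2 = 1 := hp.eq_two_or_odd.resolve_left hp2
  have h3 : (3 : F) = 0 := by exact_mod_cast CharP.cast_eq_zero F 3
  have ho4 : Fintype.card F % 4 = 3 := by
    rw [hF]
    obtain ⟨k, hk⟩ : ∃ k, p = 2 * k + 1 := ⟨p / 2, by omega⟩
    rw [hk, pow_succ, pow_mul, Nat.mul_mod, Nat.pow_mod]
    norm_num
  have ho : Fintype.card F % 2 = 1 := by omega
  obtain ⟨s, hs⟩ := exists_s hF hr
  have hst : (s : F) * ((s⁻¹ : Fˣ) : F) = 1 := by rw [← Units.val_mul, mul_inv_cancel, Units.val_one]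
  generalize ((s⁻¹ : Fˣ) : F) = t at hs hst
  generalize (s : F) = s at hs hst
  obtain ⟨a, ha⟩ := exists_as hF (by omega) _ hs
  have hn : s + t ≠ 0 := by
    intro h
    have h5 : IsSquare (-1 : F) := ⟨s, by linear_combination hst - s * h⟩
    rw [FiniteField.isSquare_neg_one_iff] at h5
    exact h5 ho4
  have ha0 : a ≠ 0 := by
    rintro rfl
    exact hn (by linear_combination -ha)
  have hai : a * a⁻¹ = 1 := mul_inv_cancel₀ ha0
  generalize a⁻¹ = i at hai
  refine of_data_odd ho (a := a) (i := i) (d := -((a ^ 2 - 2) - (s - t) * i)) hai ?_ ?_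
  · linear_combination (a ^ 4 - 3 * a ^ 2 + 2 - (a ^ 2 - 2) * (s - t) * i - i ^ 2) * h3 +
      (a ^ 2 - 1) ^ 2 * (a * i + 1) * hai - 4 * i ^ 2 * hst - i ^ 2 * (s + t + (a ^ 3 - a)) * ha
  · intro h4
    exact hn (by linear_combination a * h3 - a * h4 - ha)

end char3

end Cfsg.Agent.H910.VFix
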