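import Cfsg.Agent.H482.VSeq

/-!
Fixed pairs `v₀ = v₁ ≠ 1` in `PSL(2, F)` (helper910), for helper482 (S3935).

`core` : traces `a, a - 1/a, a² - 1 - d` with `d² - (a² - 2) d + (a² - 3 + a⁻²) = 0` give a fixed pair.
-/

set_option autoImplicit false

namespace Cfsg.Agent.H910.VFix

open Cfsg.Agent.H482.VSeq

theorem fixed_of_ident {G : Type*} [Group G] {x y : G}
    (h : y * x * y⁻¹ * x * y = x * x * y * x⁻¹ * y * x * x) : stp x y (v0 x y) = v0 x y := by
  have e1 : stp x y (v0 x y) = x⁻¹ * x⁻¹ * x⁻¹ * y⁻¹ * (x * x * y * x⁻¹ * y * x * x) * y⁻¹ := by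
    simp only [stp, v0, mul_inv_rev, inv_inv, mul_assoc, inv_mul_cancel_left, mul_inv_cancel_left, mul_inv_cancel,
      inv_mul_cancel, mul_one]
  rw [e1, ← h, v0]
  simp only [mul_assoc, inv_mul_cancel_left, mul_inv_cancel_left, mul_inv_cancel, inv_mul_cancel, mul_one]

theorem core {F : Type*} [Field F] {a i d s q : F} (h1 : a * i = 1) (h2 : d ^ 2 - (a ^ 2 - 2) * d + (a ^ 2 - 3 + i ^ 2) = 0)
    (h3 : s ^ 2 - (a - i) * s + q ^ 2 + (a ^ 2 - 1 - d - a * s) * q + 1 = 0) :
    FixedPair (Matrix.ProjectiveSpecialLinearGroup (Fin 2) F) := by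
  let X : Matrix.SpecialLinearGroup (Fin 2) F := ⟨!![0, 1; -1, a], by simp⟩
  let Xi : Matrix.SpecialLinearGroup (Fin 2) F := ⟨!![a, -1; 1, 0], by simp⟩
  let Y : Matrix.SpecialLinearGroup (Fin 2) F := ⟨!![a - i - s, q; a ^ 2 - 1 - d + q - a * s, s], by
    rw [Matrix.det_fin_two_of]; linear_combination -h3⟩
  let Yi : Matrix.SpecialLinearGroup (Fin 2) F := ⟨!![s, -q; -(a ^ 2 - 1 - d + q - a * s), a - i - s], by
    rw [Matrix.det_fin_two_of]; linear_combination -h3⟩
  have cX : X.1 = !![0, 1; -1, a] := rfl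
  have cXi : Xi.1 = !![a, -1; 1, 0] := rfl
  have cY : Y.1 = !![a - i - s, q; a ^ 2 - 1 - d + q - a * s, s] := rfl
  have cYi : Yi.1 = !![s, -q; -(a ^ 2 - 1 - d + q - a * s), a - i - s] := rfl
  have hX : X⁻¹ = Xi := by
    apply inv_eq_of_mul_eq_one_right
    apply Subtype.ext
    rw [Matrix.SpecialLinearGroup.coe_mul, cX, cXi, Matrix.mul_fin_two, Matrix.SpecialLinearGroup.coe_one, Matrix.one_fin_two]
    simp
  have hY : Y⁻¹ = Yi := by
    apply inv_eq_of_mul_eq_one_right
    apply Subtype.ext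
    rw [Matrix.SpecialLinearGroup.coe_mul, cY, cYi, Matrix.mul_fin_two, Matrix.SpecialLinearGroup.coe_one, Matrix.one_fin_two]
    ext j k
    fin_cases j <;> fin_cases k
    · show (a - i - s) * s + q * -(a ^ 2 - 1 - d + q - a * s) = 1
      linear_combination -h3
    · show (a - i - s) * -q + q * (a - i - s) = 0
      ring
    · show (a ^ 2 - 1 - d + q - a * s) * s + s * -(a ^ 2 - 1 - d + q - a * s) = 0
      ring
    · show (a ^ 2 - 1 - d + q - a * s) * -q + s * (a - i - s) = 1
      linear_combination -h3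
  have hid : Y * X * Y⁻¹ * X * Y = X * X * Y * X⁻¹ * Y * X * X := by
    rw [hX, hY]
    apply Subtype.ext
    simp only [Matrix.SpecialLinearGroup.coe_mul, cX, cXi, cY, cYi, Matrix.mul_fin_two]
    ext j k
    fin_cases j <;> fin_cases k <;> simp only [Matrix.of_apply, Matrix.cons_val', Matrix.cons_val_zero, Matrix.cons_val_one,
      Matrix.cons_val_fin_one, Fin.zero_eta, Fin.mk_one, Fin.isValue]
    · linear_combination (s + d * a + a ^ 3 - a ^ 2 * i - 3 * a + 2 * i) * h3 + (s - 2 * a + i) * h2 +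
        (-s * d + s * a ^ 2 - 4 * s + 2 * d * a - d * i - 2 * a ^ 3 + a ^ 2 * i + 6 * a - 3 * i) * h1
    · linear_combination (-d - q - a ^ 4 + 3 * a ^ 2 + a * i - 2) * h3 + (-q + a ^ 2) * h2 +
        (d * q - d * a ^ 2 - d - q * a ^ 2 + 4 * q + a ^ 4 - 2 * a ^ 2 - 2) * h1
    · linear_combination (s * a + 2 * d - q + a ^ 4 - 4 * a ^ 2 - a * i + 3) * h3 +
        (s * a + d - q - 2 * a ^ 2 - a * i + 2) * h2 +
        (-s * d * a + s * a ^ 3 - 4 * s * a + d * q + 2 * d * a ^ 2 - 2 * d - q * a ^ 2 + 4 * q - 2 * a ^ 4 + 8 * a ^ 2 + i ^ 2 - 5) * h1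
    · linear_combination (-s - a ^ 5 + 4 * a ^ 3 - 4 * a + i) * h3 + (-s + a ^ 3 - a) * h2 +
        (s * d - s * a ^ 2 + 4 * s - d * a ^ 3 + a ^ 5 - 3 * a ^ 3 + i) * h1
  have hfix := fixed_of_ident hid
  refine FixedPair.of_hom (QuotientGroup.mk' _) (x := X) (y := Y) ?_ hfix
  intro hc
  have hc' : v0 X Y ∈ Subgroup.center (Matrix.SpecialLinearGroup (Fin 2) F) := (QuotientGroup.eq_one_iff _).1 hc
  have hcx := Subgroup.mem_center_iff.1 hc' X
  have hcy := Subgroup.mem_center_iff.1 hc' Y
  have h4 : stp X Y (v0 X Y) = 1 := by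
    rw [stp, hcx, hcy]; group
  rw [h4] at hfix
  have h5 : Y * X = 1 := by
    have h6 : X⁻¹ * X⁻¹ * Y⁻¹ * X = 1 := hfix.symm
    have h7 : Y * X = X * (X⁻¹ * X⁻¹ * Y⁻¹ * X)⁻¹ * X⁻¹ := by group
    rw [h7, h6]; group
  have h8 : X⁻¹ = Y := inv_eq_of_mul_eq_one_left h5
  rw [hX] at h8
  have h9 := congrArg (fun M : Matrix.SpecialLinearGroup (Fin 2) F => M.1 0 0 + M.1 1 1) h8
  simp only [cXi, cY] at h9
  have h10 : a + 0 = a - i - s + s := h9
  have h11 : i = 0 := by linear_combination h10
  rw [h11, mul_zero] at h1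
  exact zero_ne_one h1

open Polynomial in
/-- the conic has a point, odd characteristic. -/
theorem conic_odd {F : Type*} [Field F] [Fintype F] (ho : Fintype.card F % 2 = 1) (a b c : F) (ha : 4 - a ^ 2 ≠ 0) :
    ∃ s q : F, s ^ 2 - b * s + q ^ 2 + (c - a * s) * q + 1 = 0 := by
  have h2 : (2 : F) ≠ 0 := by
    intro h2
    have : ringChar F = 2 := by
      have h3 : ringChar F ∣ 2 := (ringChar.spec F 2).1 (by exact_mod_cast h2)
      rcases (Nat.dvd_prime Nat.prime_two).1 h3 with h | h
      · exact absurd h (CharP.ringChar_ne_one)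
      · exact h
    rw [FiniteField.even_card_iff_char_two] at this
    omega
  obtain ⟨T, q, hTq⟩ := FiniteField.exists_root_sum_quadratic (R := F) (f := X ^ 2)
    (g := C (4 - a ^ 2) * X ^ 2 + C (4 * c - 2 * a * b) * X + C (4 - b ^ 2)) (by simp) (degree_quadratic ha) ho
  simp only [eval_pow, eval_X, eval_add, eval_mul, eval_C] at hTq
  refine ⟨(T + a * q + b) / 2, q, ?_⟩
  field_simp
  linear_combination hTq

/-- the conic has a point, characteristic 2. -/
theorem conic_two {F : Type*} [Field F] [Finite F] [CharP F 2] (a b c : F) (ha : a ≠ 0) :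
    ∃ s q : F, s ^ 2 - b * s + q ^ 2 + (c - a * s) * q + 1 = 0 := by
  have h2 : (2 : F) = 0 := CharTwo.two_eq_zero
  obtain ⟨e, he⟩ : ∃ e, e ^ 2 = (c / a) ^ 2 - b * (c / a) + (b / a) ^ 2 + (c - a * (c / a)) * (b / a) + 1 := by
    have h : Function.Injective (frobenius F 2) := frobenius_inj F 2
    obtain ⟨b, hb⟩ := Finite.surjective_of_injective h
      ((c / a) ^ 2 - b * (c / a) + (b / a) ^ 2 + (c - a * (c / a)) * (b / a) + 1)
    exact ⟨b, by simpa [frobenius_def] using hb⟩
  refine ⟨c / a + e, b / a, ?_⟩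
  have h3 : a * (c / a) = c := mul_div_cancel₀ c ha
  have h4 : a * (b / a) = b := mul_div_cancel₀ b ha
  generalize c / a = x at *
  generalize b / a = y at *
  linear_combination he + (x * e + x ^ 2 - b * x + y ^ 2 + (c - a * x) * y + 1 - b * e) * h2 - e * h4

theorem of_data_odd {F : Type*} [Field F] [Fintype F] (ho : Fintype.card F % 2 = 1) {a i d : F} (h1 : a * i = 1)
    (h2 : d ^ 2 - (a ^ 2 - 2) * d + (a ^ 2 - 3 + i ^ 2) = 0) (ha : 4 - a ^ 2 ≠ 0) :
    FixedPair (Matrix.ProjectiveSpecialLinearGroup (Fin 2) F) := by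
  obtain ⟨s, q, h⟩ := conic_odd ho a (a - i) (a ^ 2 - 1 - d) ha
  exact core h1 h2 h

theorem of_data_two {F : Type*} [Field F] [Finite F] [CharP F 2] {a i d : F} (h1 : a * i = 1)
    (h2 : d ^ 2 - (a ^ 2 - 2) * d + (a ^ 2 - 3 + i ^ 2) = 0) :
    FixedPair (Matrix.ProjectiveSpecialLinearGroup (Fin 2) F) := by
  obtain ⟨s, q, h⟩ := conic_two a (a - i) (a ^ 2 - 1 - d) (left_ne_zero_of_mul_eq_one h1)
  exact core h1 h2 h

theorem fixedPair_psl2_two {F : Type*} [Field F] [Fintype F] {p : ℕ} (hp : p.Prime) (hF : Fintype.card F = 2 ^ p) :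
    FixedPair (Matrix.ProjectiveSpecialLinearGroup (Fin 2) F) := by
  classical
  have hch : CharP F 2 := by
    have h3 : ringChar F = 2 := by
      rw [FiniteField.even_card_iff_char_two, hF]
      obtain ⟨k, rfl⟩ : ∃ k, p = k + 1 := ⟨p - 1, by have := hp.two_le; omega⟩
      rw [pow_succ, Nat.mul_mod_left]
    rw [← h3]; exact ringChar.charP F
  have h2 : (2 : F) = 0 := CharTwo.two_eq_zero
  rcases hp.eq_two_or_odd' with h | hodd
  · -- the field with four elements
    subst h
    obtain ⟨w, hw⟩ : ∃ w : F, w ∉ ({0, 1} : Finset F) := by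
      by_contra hcon
      push Not at hcon
      have h4 : Fintype.card F ≤ ({0, 1} : Finset F).card := by
        rw [← Finset.card_univ]
        exact Finset.card_le_card (fun x _ => hcon x)
      have h5 : ({0, 1} : Finset F).card ≤ 2 := Finset.card_le_two
      rw [hF] at h4
      omega
    simp only [Finset.mem_insert, Finset.mem_singleton, not_or] at hw
    have h4 : w ^ 4 = w := by
      have := FiniteField.pow_card w
      rwa [hF] at this
    have h5 : w * (w - 1) * (w ^ 2 + w + 1) = 0 := by linear_combination h4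
    have h6 : w ^ 2 + w + 1 = 0 :=
      (mul_eq_zero.1 h5).resolve_left (mul_ne_zero hw.1 (sub_ne_zero.2 hw.2))
    refine of_data_two (a := 1) (i := 1) (d := w) (by ring) ?_
    linear_combination h6 - h2
  · -- cubing is bijective
    have hcop : (Fintype.card Fˣ).Coprime 3 := by
      rw [Fintype.card_units, hF, Nat.coprime_comm, Nat.Prime.coprime_iff_not_dvd Nat.prime_three]
      obtain ⟨k, hk⟩ := hodd
      have h3 : 2 ^ p % 3 = 2 := by
        rw [hk, pow_succ, pow_mul, Nat.mul_mod, Nat.pow_mod]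
        norm_num
      omega
    obtain ⟨z, hz⟩ : ∃ z : F, z ∉ ({0, 1} : Finset F) := by
      by_contra hcon
      push Not at hcon
      have h4 : Fintype.card F ≤ ({0, 1} : Finset F).card := by
        rw [← Finset.card_univ]
        exact Finset.card_le_card (fun x _ => hcon x)
      have h5 : ({0, 1} : Finset F).card ≤ 2 := Finset.card_le_two
      rw [hF] at h4
      have h6 : 2 ^ 2 ≤ 2 ^ p := Nat.pow_le_pow_right (by norm_num) hp.two_le
      omega
    simp only [Finset.mem_insert, Finset.mem_singleton, not_or] at hz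
    have hz0 : z ^ 2 + z ≠ 0 := by
      intro h
      have h3 : z * (z - 1) = 0 := by linear_combination h - z * h2
      rcases mul_eq_zero.1 h3 with h | h
      · exact hz.1 h
      · exact hz.2 (sub_eq_zero.1 h)
    obtain ⟨v, hv⟩ : ∃ v : Fˣ, v ^ 3 = Units.mk0 _ hz0 := by
      have := (powCoprime (G := Fˣ) (by rw [Nat.card_eq_fintype_card]; exact hcop)).surjective (Units.mk0 _ hz0)
      obtain ⟨v, hv⟩ := this
      exact ⟨v, hv⟩
    have hv' : (v : F) ^ 3 = z ^ 2 + z := by
      have := congrArg Units.val hv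
      rwa [Units.val_pow_eq_pow_val, Units.val_mk0] at this
    have h1 : ((v⁻¹ : Fˣ) : F) * v = 1 := by rw [← Units.val_mul, inv_mul_cancel, Units.val_one]
    generalize ((v⁻¹ : Fˣ) : F) = a at h1
    generalize (v : F) = u at h1 hv'
    refine of_data_two (a := a) (i := u) (d := 1 + a ^ 2 * z ^ 2) h1 ?_
    have h3 : u ^ 6 = (z ^ 2 + z) ^ 2 := by rw [← hv']; ring
    linear_combination -a ^ 4 * h3 + u ^ 2 * ((a * u) ^ 3 + (a * u) ^ 2 + a * u + 1) * h1 +
      (u ^ 2 + 2 * a ^ 2 * z ^ 2 - a ^ 4 * z ^ 3 - a ^ 4 * z ^ 2) * h2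

theorem fixedPair_psl2_prime {F : Type*} [Field F] [Fintype F] {p : ℕ} (hp : p.Prime) (hF : Fintype.card F = p)
    (h : p = 5 ∨ 5 < p) : FixedPair (Matrix.ProjectiveSpecialLinearGroup (Fin 2) F) := by
  classical
  have hch : CharP F p := by
    have h1 : (p : F) = 0 := by rw [← hF]; exact FiniteField.cast_card_eq_zero F
    have h2 := (Nat.dvd_prime hp).1 ((ringChar.spec F p).1 h1)
    rcases h2 with h2 | h2
    · exact absurd h2 CharP.ringChar_ne_one
    · rw [← h2]; exact ringChar.charP F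
  have ho : Fintype.card F % 2 = 1 := by
    rw [hF]
    rcases hp.eq_two_or_odd with h2 | h2
    · omega
    · exact h2
  have hne : ∀ n : ℕ, ¬ p ∣ n → (n : F) ≠ 0 := fun n hn h => hn ((CharP.cast_eq_zero_iff F p n).1 h)
  have n2 : (2 : F) ≠ 0 := by
    have := hne 2 (fun h => by have := Nat.le_of_dvd (by norm_num) h; omega)
    exact_mod_cast this
  rcases h with rfl | h5
  · -- p = 5, a = 1, d = 2
    have h5 : (5 : F) = 0 := by exact_mod_cast (CharP.cast_eq_zero F 5)
    refine of_data_odd ho (a := 1) (i := 1) (d := 2) (by ring) ?_ ?_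
    · linear_combination h5
    · intro h3
      apply one_ne_zero (α := F)
      linear_combination 2 * h3 - h5
  · have n5 : (5 : F) ≠ 0 := by
      have := hne 5 (fun h => by have := Nat.le_of_dvd (by norm_num) h; omega)
      exact_mod_cast this
    have n3 : (3 : F) ≠ 0 := by
      have := hne 3 (fun h => by have := Nat.le_of_dvd (by norm_num) h; omega)
      exact_mod_cast this
    by_cases s2 : IsSquare (2 : F)
    · obtain ⟨a, ha⟩ := s2
      have ha' : a ^ 2 = 2 := by rw [ha]; ring
      refine of_data_odd ho (a := a) (i := a / 2) (d := a / 2) ?_ ?_ ?_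
      · field_simp; linear_combination ha'
      · field_simp; linear_combination (6 - 2 * a) * ha'
      · rw [ha']
        intro h3
        exact n2 (by linear_combination h3)
    by_cases s5 : IsSquare (5 : F)
    · obtain ⟨a, ha⟩ := s5
      have ha' : a ^ 2 = 5 := by rw [ha]; ring
      refine of_data_odd ho (a := a) (i := a / 5) (d := (3 + a / 5) / 2) ?_ ?_ ?_
      · field_simp; linear_combination ha'
      · field_simp; linear_combination (-(45 + 10 * a)) * ha'
      · rw [ha']
        intro h3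
        exact one_ne_zero (α := F) (by linear_combination -h3)
    have n10 : (10 : F) ≠ 0 := by
      rw [show (10 : F) = 2 * 5 by norm_num]; exact mul_ne_zero n2 n5
    have n90 : (90 : F) ≠ 0 := by
      rw [show (90 : F) = 10 * 3 * 3 by norm_num]; exact mul_ne_zero (mul_ne_zero n10 n3) n3
    have s10 : IsSquare (10 : F) := by
      rw [← quadraticChar_one_iff_isSquare n10, show (10 : F) = 2 * 5 by norm_num, map_mul,
        quadraticChar_neg_one_iff_not_isSquare.2 s2, quadraticChar_neg_one_iff_not_isSquare.2 s5]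
      norm_num
    obtain ⟨t, ht⟩ := s10
    have ht' : t ^ 2 = 10 := by rw [ht]; ring
    by_cases h13 : p = 13
    · subst h13
      have h13 : (13 : F) = 0 := by exact_mod_cast (CharP.cast_eq_zero F 13)
      refine core (a := 2) (i := 7) (d := 10) (s := 7) (q := 1) ?_ ?_ ?_
      · linear_combination h13
      · linear_combination 10 * h13
      · linear_combination 5 * h13
    · have n13 : (13 : F) ≠ 0 := by
        have := hne 13 (fun h => h13 ((Nat.dvd_prime (by norm_num)).1 h |>.resolve_left (by omega)))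
        exact_mod_cast this
      refine of_data_odd ho (a := t / 3) (i := 3 * t / 10) (d := (-40 + 31 * t) / 90) ?_ ?_ ?_
      · field_simp; linear_combination ht'
      · field_simp; linear_combination (2691000 - 279000 * t) * ht'
      · intro h3
        apply mul_ne_zero n2 n13
        field_simp at h3
        linear_combination h3 + ht'

end Cfsg.Agent.H910.VFix
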